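import Mathlib
import Cfsg.Agent.H7.AbelianCA.Basic
import Cfsg.Agent.H50.StronglyEmbedded
import Cfsg.Agent.H28.StronglyEmbedded

/-!
# Abelian Sylow 2-subgroup with a 2-complement: the strongly embedded case is absurd
-/

set_option autoImplicit false

namespace Cfsg.Agent.H7.TwoComp

variable {G : Type*} [Group G] [Finite G]

/-- A Sylow 2-subgroup is a transversal of a subgroup of odd order and 2-power index. -/
lemma sylow_bijective (S : Sylow 2 G) (M : Subgroup G) (hM : Odd (Nat.card M))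
    (hk : ∃ k : ℕ, M.index = 2 ^ k) :
    Function.Bijective (fun s : (S : Subgroup G) => ((s : G) : G ⧸ M)) ∧
      Nat.card (S : Subgroup G) = M.index := by
  haveI : Fact (Nat.Prime 2) := ⟨Nat.prime_two⟩
  obtain ⟨k, hk⟩ := hk
  have hcard : Nat.card (S : Subgroup G) = M.index := by
    have hnd : ¬ 2 ∣ Nat.card M := fun hd =>
      Nat.not_even_iff_odd.2 hM (even_iff_two_dvd.2 hd)
    rw [S.card_eq_multiplicity, ← M.card_mul_index, hk,
      Nat.factorization_mul Nat.card_pos.ne' (by positivity), Finsupp.add_apply,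
      Nat.factorization_eq_zero_of_not_dvd hnd, Nat.prime_two.factorization_pow,
      Finsupp.single_eq_same, zero_add]
  refine ⟨(Nat.bijective_iff_injective_and_card _).2 ⟨fun a b hab => ?_, hcard⟩, hcard⟩
  have h1 : (a : G)⁻¹ * b ∈ M := QuotientGroup.eq.1 hab
  have h2 : orderOf ((a : G)⁻¹ * b) ∣ 2 ^ k := by
    rw [← hk, ← hcard]
    exact Subgroup.orderOf_dvd_natCard _ (mul_mem (inv_mem a.2) b.2)
  have h3 : orderOf ((a : G)⁻¹ * b) ∣ Nat.card M := Subgroup.orderOf_dvd_natCard _ h1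
  exact Subtype.ext (inv_mul_eq_one.1 (orderOf_eq_one_iff.1
    (Nat.eq_one_of_dvd_coprimes (Nat.Coprime.pow_left k (Nat.coprime_two_left.2 hM)) h2 h3)))

/-- The strongly embedded configuration is impossible. -/
theorem endgame (S : Sylow 2 G) (hS : IsMulCommutative (S : Subgroup G)) (M : Subgroup G)
    (hM : Odd (Nat.card M)) (hk : ∃ k : ℕ, M.index = 2 ^ k)
    (hnn : ¬ (S : Subgroup G).Normal)
    (hC : ∀ u ∈ (S : Subgroup G), orderOf u = 2 →
      Subgroup.centralizer ({u} : Set G) ≤ Subgroup.normalizer ((S : Subgroup G) : Set G))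
    {a b : G} (ha : a ∈ S) (ha2 : orderOf a = 2) (hb : b ∈ S) (hb2 : orderOf b = 2)
    (hab : a ≠ b) : False := by
  classical
  haveI : Fact (Nat.Prime 2) := ⟨Nat.prime_two⟩
  haveI := hS
  have hcomm : ∀ x ∈ (S : Subgroup G), ∀ y ∈ (S : Subgroup G), x * y = y * x := fun x hx y hy =>
    congrArg Subtype.val (mul_comm' (⟨x, hx⟩ : (S : Subgroup G)) ⟨y, hy⟩)
  set N := Subgroup.normalizer ((S : Subgroup G) : Set G) with hN
  have hNtop : N ≠ ⊤ := fun e => hnn (Subgroup.normalizer_eq_top_iff.1 e)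
  have heven : Even (Nat.card N) :=
    even_iff_two_dvd.2 (ha2 ▸ Subgroup.orderOf_dvd_natCard _ (Subgroup.le_normalizer ha))
  have hSE : Cfsg.IsStronglyEmbedded N := by
    rw [H28.isStronglyEmbedded_iff_mem hNtop heven]
    intro t ht ht2 g hg
    have htS : t ∈ S := ACA.inv_mem_S ht ht2
    have hgS : g⁻¹ * t * g ∈ S := ACA.inv_mem_S hg (by rw [ACA.orderOf_conj', ht2])
    have hle : (S : Subgroup G).map (MulAut.conj g).toMonoidHom ≤ (S : Subgroup G) := by
      rintro _ ⟨s, hs, rfl⟩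
      obtain ⟨j, hj⟩ := S.2 ⟨s, hs⟩
      have hj' : s ^ 2 ^ j = 1 := congrArg Subtype.val hj
      refine ACA.mem_of_pow_eq_one (hC t htS ht2 (Subgroup.mem_centralizer_singleton_iff.2 ?_))
        (k := j) (by
          rw [MulEquiv.coe_toMonoidHom, MulAut.conj_apply, conj_pow, hj']
          group)
      simp only [MulEquiv.coe_toMonoidHom, MulAut.conj_apply]
      calc g * s * g⁻¹ * t = g * (s * (g⁻¹ * t * g)) * g⁻¹ := by group
        _ = g * (g⁻¹ * t * g * s) * g⁻¹ := by rw [hcomm s hs _ hgS]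
        _ = t * (g * s * g⁻¹) := by group
    refine Subgroup.mem_normalizer_iff_map_conj_eq.2 (Subgroup.eq_of_le_of_card_ge hle (le_of_eq ?_))
    exact (Subgroup.card_map_of_injective (MulAut.conj g).injective).symm
  -- two involutions exchanging two points
  obtain ⟨g, -, hg⟩ := SetLike.exists_of_lt (lt_top_iff_ne_top.2 hNtop)
  set x : G ⧸ N := ((1 : G) : G ⧸ N) with hx
  have hxy : x ≠ ((g : G) : G ⧸ N) := fun e => hg (by
    have := QuotientGroup.eq.1 e
    simpa using this)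
  haveI : Nontrivial {t : G // orderOf t = 2 ∧ t ∈ N} :=
    ⟨⟨a, ha2, Subgroup.le_normalizer ha⟩, ⟨b, hb2, Subgroup.le_normalizer hb⟩,
      fun e => hab (congrArg Subtype.val e)⟩
  haveI : Nontrivial {i : G // orderOf i = 2 ∧ i • x = ((g : G) : G ⧸ N)} := by
    rw [← Finite.one_lt_card_iff_nontrivial, H50.se_card_swap hSE hxy,
      Finite.one_lt_card_iff_nontrivial]
    infer_instance
  obtain ⟨⟨i, hi, hix⟩, ⟨j, hj, hjx⟩, hij⟩ :=
    exists_pair_ne {i : G // orderOf i = 2 ∧ i • x = ((g : G) : G ⧸ N)}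
  set c := j * i with hc
  have hiy := H50.smul_swap hi hix
  have hjy := H50.smul_swap hj hjx
  have hcx : c • x = x := by rw [hc, mul_smul, hix, hjy]
  have hcy : c • ((g : G) : G ⧸ N) = ((g : G) : G ⧸ N) := by rw [hc, mul_smul, hiy, hjx]
  have hc1 : c ≠ 1 := fun e => hij (Subtype.ext (show i = j by
    rw [← H50.inv_eq_self hj]; exact (inv_eq_of_mul_eq_one_right e).symm))
  have hinv : i * c * i⁻¹ = c⁻¹ := by
    rw [hc, mul_inv_rev, H50.inv_eq_self hi, H50.inv_eq_self hj, mul_assoc, mul_assoc j,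
      H50.inv_mul_self hi, mul_one]
  have hcN : c ∈ N := (H50.smul_one_coset_eq_iff (H := N)).1 hcx
  have hfree : ∀ s ∈ (S : Subgroup G), c * s * c⁻¹ = s → s = 1 := by
    intro s hs hcs
    by_contra hs1
    have hev : Even (orderOf s) := by
      obtain ⟨l, hl⟩ := S.2 ⟨s, hs⟩
      obtain ⟨m, -, hm⟩ := (Nat.dvd_prime_pow Nat.prime_two).1
        (orderOf_dvd_of_pow_eq_one (congrArg Subtype.val hl : s ^ 2 ^ l = 1))
      rw [hm]
      refine even_iff_two_dvd.2 (dvd_pow_self 2 ?_)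
      intro e
      rw [e, pow_zero] at hm
      exact hs1 (orderOf_eq_one_iff.1 hm)
    obtain ⟨l, hl⟩ := ACA.exists_pow_involution hev
    refine hc1 (H50.se_swap_rigid hSE hl hi hxy ?_ hix hcx hcy hinv ?_)
    · exact (H50.smul_one_coset_eq_iff (H := N)).2 (Subgroup.le_normalizer (pow_mem hs l))
    · exact Commute.pow_left (show Commute s c from (mul_inv_eq_iff_eq_mul.1 hcs).symm) l
  -- `c` has exactly one fixed point among the cosets of `M`
  obtain ⟨hbij, -⟩ := sylow_bijective S M hM hk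
  let φ : ↥(S : Subgroup G) → ↥(S : Subgroup G) := fun s =>
    ⟨(s : G)⁻¹ * (c * s * c⁻¹), mul_mem (inv_mem s.2) ((Subgroup.mem_normalizer_iff.1 hcN s).1 s.2)⟩
  have hφ : Function.Bijective φ := by
    rw [← Finite.injective_iff_bijective]
    intro s t hst
    have h1 : (s : G)⁻¹ * (c * s * c⁻¹) = (t : G)⁻¹ * (c * t * c⁻¹) := congrArg Subtype.val hst
    have h2 : c * ((t : G) * (s : G)⁻¹) * c⁻¹ = (t : G) * (s : G)⁻¹ := by
      calc c * ((t : G) * (s : G)⁻¹) * c⁻¹
          = (t : G) * ((t : G)⁻¹ * (c * t * c⁻¹)) * (c * s * c⁻¹)⁻¹ := by group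
        _ = (t : G) * ((s : G)⁻¹ * (c * s * c⁻¹)) * (c * s * c⁻¹)⁻¹ := by rw [h1]
        _ = (t : G) * (s : G)⁻¹ := by group
    exact Subtype.ext (mul_inv_eq_one.1 (hfree _ (mul_mem t.2 (inv_mem s.2)) h2)).symm
  obtain ⟨s₀, hs₀⟩ := hbij.2 ((c : G) : G ⧸ M)
  have hfix : ∀ s : (S : Subgroup G),
      c • (((s : G)) : G ⧸ M) = ((s : G) : G ⧸ M) ↔ φ s = s₀⁻¹ := by
    intro s
    have hcS : c * s * c⁻¹ ∈ (S : Subgroup G) := (Subgroup.mem_normalizer_iff.1 hcN s).1 s.2
    have h1 : c • (((s : G)) : G ⧸ M) = ((c * s * c⁻¹ * (s₀ : G) : G) : G ⧸ M) := by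
      calc c • (((s : G)) : G ⧸ M) = ((c * s : G) : G ⧸ M) := rfl
        _ = (c * (s : G) * c⁻¹) • ((c : G) : G ⧸ M) :=
          congrArg QuotientGroup.mk (show c * (s : G) = c * s * c⁻¹ * c by group)
        _ = _ := by rw [← hs₀]; rfl
    have h2 : (φ s : G) * (s₀ : G) = (s : G)⁻¹ * (c * s * c⁻¹ * s₀) := mul_assoc _ _ _
    constructor
    · intro h
      have h3 := congrArg Subtype.val (hbij.1 (a₁ := ⟨_, mul_mem hcS s₀.2⟩) (a₂ := s) (h1.symm.trans h))
      refine eq_inv_of_mul_eq_one_left (Subtype.ext ?_)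
      show (φ s : G) * (s₀ : G) = 1
      rw [h2]
      exact inv_mul_eq_one.2 h3.symm
    · intro h
      rw [h1]
      have h3 : (φ s : G) * (s₀ : G) = 1 := by rw [h]; exact inv_mul_cancel (s₀ : G)
      rw [h2, inv_mul_eq_one] at h3
      exact congrArg QuotientGroup.mk h3.symm
  obtain ⟨s, hs⟩ := hφ.2 s₀⁻¹
  obtain ⟨t, ht⟩ := hbij.2 (i • ((s : G) : G ⧸ M))
  have hp : c • ((s : G) : G ⧸ M) = ((s : G) : G ⧸ M) := (hfix s).2 hs
  have hq : c • ((t : G) : G ⧸ M) = ((t : G) : G ⧸ M) := by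
    have hci : c * i = i * c⁻¹ := by
      rw [← hinv, H50.inv_eq_self hi]
      simp only [← mul_assoc, H50.inv_mul_self hi, one_mul]
    rw [show ((t : G) : G ⧸ M) = i • ((s : G) : G ⧸ M) from ht, smul_smul, hci, mul_smul]
    congr 1
    rw [inv_smul_eq_iff, hp]
  have hts : t = s := hφ.1 (((hfix t).1 hq).trans hs.symm)
  subst hts
  have ht' : (t : G)⁻¹ * i⁻¹ * t ∈ M := by
    have h1 : ((t : G) : G ⧸ M) = ((i * t : G) : G ⧸ M) := ht
    have := inv_mem (QuotientGroup.eq.1 h1)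
    simpa [mul_assoc] using this
  have hd := Subgroup.orderOf_dvd_natCard _ ht'
  rw [H50.inv_eq_self hi, ACA.orderOf_conj', hi] at hd
  exact Nat.not_even_iff_odd.2 hM (even_iff_two_dvd.2 hd)

end Cfsg.Agent.H7.TwoComp
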