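import Mathlib
import Cfsg.Agent.H7.TwoComp.EndGame
import Cfsg.Agent.H19.Fitting
import Cfsg.Agent.S0205

/-!
# An abelian Sylow 2-subgroup and a 2-complement imply solvability
-/

set_option autoImplicit false

namespace Cfsg.Agent.H7.TwoComp

universe u

lemma sylow_comm_subgroup {G : Type u} [Group G] [Finite G]
    (hab : ∀ S : Sylow 2 G, IsMulCommutative (S : Subgroup G)) (N : Subgroup G) (P : Sylow 2 N) :
    IsMulCommutative (P : Subgroup N) := by
  haveI : Fact (Nat.Prime 2) := ⟨Nat.prime_two⟩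
  obtain ⟨S, hS⟩ := (P.2.map N.subtype).exists_le_sylow
  haveI := hab S
  refine ⟨⟨fun x y => ?_⟩⟩
  have h := congrArg Subtype.val
    (mul_comm' (⟨_, hS ⟨x, x.2, rfl⟩⟩ : (S : Subgroup G)) ⟨_, hS ⟨y, y.2, rfl⟩⟩)
  exact Subtype.ext (Subtype.ext h)

lemma sylow_comm_quotient {G : Type u} [Group G] [Finite G]
    (hab : ∀ S : Sylow 2 G, IsMulCommutative (S : Subgroup G)) (N : Subgroup G) [N.Normal]
    (P : Sylow 2 (G ⧸ N)) : IsMulCommutative (P : Subgroup (G ⧸ N)) := by
  haveI : Fact (Nat.Prime 2) := ⟨Nat.prime_two⟩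
  obtain ⟨S, rfl⟩ := Sylow.mapSurjective_surjective (QuotientGroup.mk'_surjective N) 2 P
  haveI := hab S
  refine ⟨⟨?_⟩⟩
  rintro ⟨_, x, hx, rfl⟩ ⟨_, y, hy, rfl⟩
  refine Subtype.ext ?_
  show QuotientGroup.mk' N x * QuotientGroup.mk' N y = QuotientGroup.mk' N y * QuotientGroup.mk' N x
  rw [← map_mul, ← map_mul]
  exact congrArg _ (congrArg Subtype.val (mul_comm' (⟨x, hx⟩ : (S : Subgroup G)) ⟨y, hy⟩))

/-- For a normal subgroup the relative index of a subgroup divides its index. -/
lemma relIndex_dvd_index_right {G : Type u} [Group G] [Finite G] (M N : Subgroup G) [N.Normal] :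
    M.relIndex N ∣ M.index := by
  have h1 : N.relIndex M * Nat.card (N ⊓ M : Subgroup G) = Nat.card M := by
    rw [← Subgroup.inf_relIndex_right N M, mul_comm]
    have := ((N ⊓ M).subgroupOf M).card_mul_index
    rwa [Nat.card_congr (Subgroup.subgroupOfEquivOfLe inf_le_right).toEquiv] at this
  have h2 : M.relIndex N * Nat.card (N ⊓ M : Subgroup G) = Nat.card N := by
    rw [← Subgroup.inf_relIndex_left N M, mul_comm]
    have := ((N ⊓ M).subgroupOf N).card_mul_index
    rwa [Nat.card_congr (Subgroup.subgroupOfEquivOfLe inf_le_left).toEquiv] at this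
  obtain ⟨l, hl⟩ : N.relIndex M ∣ N.index := Subgroup.relIndex_dvd_index_of_normal N M
  refine ⟨l, ?_⟩
  have hpos : 0 < Nat.card M := Nat.card_pos
  refine Nat.eq_of_mul_eq_mul_left hpos ?_
  rw [M.card_mul_index, ← N.card_mul_index, hl, ← h2, ← h1]
  ring

/-- An overgroup of a Sylow 2-subgroup has the full 2-complement index. -/
lemma relIndex_eq_index {G : Type u} [Group G] [Finite G] (S : Sylow 2 G) {M C : Subgroup G}
    (hM : Odd (Nat.card M)) (hk : ∃ k : ℕ, M.index = 2 ^ k) (hSC : (S : Subgroup G) ≤ C) :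
    M.relIndex C = M.index := by
  obtain ⟨-, hcard⟩ := sylow_bijective S M hM hk
  obtain ⟨k, hk⟩ := hk
  have h2 : M.relIndex C ≤ M.index := by
    rw [← Subgroup.relIndex_top_right]
    exact Subgroup.relIndex_le_of_le_right le_top
      (by rw [Subgroup.relIndex_top_right]; exact Subgroup.index_ne_zero_of_finite)
  have h3 : Nat.card (M ⊓ C : Subgroup G) * M.relIndex C = Nat.card C := by
    rw [← Subgroup.inf_relIndex_right M C]
    have := ((M ⊓ C).subgroupOf C).card_mul_index
    rwa [Nat.card_congr (Subgroup.subgroupOfEquivOfLe inf_le_right).toEquiv] at this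
  have h4 : 2 ^ k ∣ M.relIndex C := by
    refine ((Nat.coprime_two_left.2 (hM.of_dvd_nat
      (Subgroup.card_dvd_of_le (inf_le_left (b := C))))).pow_left k).dvd_of_dvd_mul_left ?_
    rw [h3, ← hk, ← hcard]
    exact Subgroup.card_dvd_of_le hSC
  exact le_antisymm h2 (hk ▸ Nat.le_of_dvd (Nat.pos_of_ne_zero Subgroup.index_ne_zero_of_finite) h4)

/-- An odd normal subgroup of an overgroup of a Sylow 2-subgroup is contained in the core of a
2-complement. -/
lemma odd_normal_eq_bot {G : Type u} [Group G] [Finite G] (S : Sylow 2 G) {M C W : Subgroup G}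
    (hM : Odd (Nat.card M)) (hk : ∃ k : ℕ, M.index = 2 ^ k) (hcore : M.normalCore = ⊥)
    (hSC : (S : Subgroup G) ≤ C) (hWC : W ≤ C) (hW : C ≤ Subgroup.normalizer (W : Set G))
    (hWodd : Odd (Nat.card W)) : W = ⊥ := by
  haveI : Fact (Nat.Prime 2) := ⟨Nat.prime_two⟩
  obtain ⟨hbij, hcard⟩ := sylow_bijective S M hM hk
  obtain ⟨k, hk⟩ := hk
  set M' := M ⊓ C with hM'
  have hM'le : M' ≤ Subgroup.normalizer (W : Set G) := inf_le_right.trans hW
  have hodd : Odd (Nat.card (W ⊔ M' : Subgroup G)) := by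
    set R := W ⊔ M' with hR
    haveI : (W.subgroupOf R).Normal := (Subgroup.normal_subgroupOf_iff_le_normalizer le_sup_left).2
      (sup_le Subgroup.le_normalizer hM'le)
    have h1 := Subgroup.card_eq_card_quotient_mul_card_subgroup (W.subgroupOf R)
    rw [Nat.card_congr (Subgroup.subgroupOfEquivOfLe (le_sup_left : W ≤ R)).toEquiv] at h1
    rw [h1]
    refine Odd.mul ?_ hWodd
    have h2 : Nat.card (R ⧸ W.subgroupOf R) ∣ Nat.card M' := by
      refine Subgroup.card_dvd_of_surjective
        ((QuotientGroup.mk' (W.subgroupOf R)).comp (Subgroup.inclusion le_sup_right)) ?_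
      intro q
      obtain ⟨⟨r, hr⟩, rfl⟩ := QuotientGroup.mk'_surjective _ q
      have hr' : r ∈ ((W ⊔ M' : Subgroup G) : Set G) := hr
      rw [Subgroup.coe_mul_of_right_le_normalizer_left W M' hM'le] at hr'
      obtain ⟨w, hw, m, hm, rfl⟩ := Set.mem_mul.1 hr'
      refine ⟨⟨m, hm⟩, ?_⟩
      rw [MonoidHom.comp_apply, QuotientGroup.mk'_eq_mk']
      refine ⟨⟨m⁻¹ * w * m, mul_mem (mul_mem (inv_mem (le_sup_right (a := W) hm))
        (le_sup_left (b := M') hw)) (le_sup_right (a := W) hm)⟩, ?_, ?_⟩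
      · exact (Subgroup.mem_normalizer_iff''.1 (hM'le hm) w).1 hw
      · exact Subtype.ext (show m * (m⁻¹ * w * m) = w * m by group)
    exact hM.of_dvd_nat (h2.trans (Subgroup.card_dvd_of_le inf_le_left))
  have hle : W ≤ M' := by
    refine le_sup_left.trans (le_of_eq (Subgroup.eq_of_le_of_card_ge le_sup_right ?_).symm)
    refine Nat.le_of_dvd Nat.card_pos ?_
    have h1 : M.relIndex C ∣ 2 ^ k := by
      rw [relIndex_eq_index S hM ⟨k, hk⟩ hSC, hk]
    have h5 : Nat.card (W ⊔ M' : Subgroup G) ∣ Nat.card M' * M.relIndex C := by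
      rw [show Nat.card M' * M.relIndex C = Nat.card C by
        rw [← Subgroup.inf_relIndex_right M C, hM']
        have := ((M ⊓ C).subgroupOf C).card_mul_index
        rwa [Nat.card_congr (Subgroup.subgroupOfEquivOfLe inf_le_right).toEquiv] at this]
      exact Subgroup.card_dvd_of_le (sup_le hWC inf_le_right)
    exact ((Nat.coprime_two_right.2 hodd).pow_right k).dvd_of_dvd_mul_right
      (h5.trans (mul_dvd_mul_left _ h1))
  refine eq_bot_iff.2 (le_trans (b := M.normalCore) ?_ hcore.le)
  intro w hw g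
  obtain ⟨s, hs⟩ := hbij.2 ((g⁻¹ : G) : G ⧸ M)
  have hm : (s : G)⁻¹ * g⁻¹ ∈ M := QuotientGroup.eq.1 hs
  have hw' : (s : G)⁻¹ * w * s ∈ M :=
    (hle ((Subgroup.mem_normalizer_iff''.1 (hW (hSC s.2)) w).1 hw)).1
  have := mul_mem (mul_mem (inv_mem hm) hw') hm
  simpa [mul_assoc] using this

/-- A group with abelian Sylow 2-subgroups and a 2-complement is solvable. -/
theorem isSolvable_of_two_complement {G : Type u} [Group G] [Finite G]
    (hab : ∀ S : Sylow 2 G, IsMulCommutative (S : Subgroup G)) (M : Subgroup G)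
    (hM : Odd (Nat.card M)) (hk : ∃ k : ℕ, M.index = 2 ^ k) : Group.IsSolvable G := by
  induction hn : Nat.card G using Nat.strong_induction_on generalizing G with
  | _ n ih =>
  subst hn
  classical
  haveI : Fact (Nat.Prime 2) := ⟨Nat.prime_two⟩
  by_cases hodd : Odd (Nat.card G)
  · exact S0205.result hodd
  by_cases hsimple : IsSimpleGroup G
  swap
  · haveI : Nontrivial G := by
      rw [← Finite.one_lt_card_iff_nontrivial]
      have : 0 < Nat.card G := Nat.card_pos
      rw [Nat.odd_iff] at hodd; omega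
    obtain ⟨N, hN, hNne⟩ : ∃ N : Subgroup G, N.Normal ∧ N ≠ ⊥ ∧ N ≠ ⊤ := by
      by_contra hnone
      push Not at hnone
      exact hsimple ⟨fun K hK => or_iff_not_imp_left.mpr (hnone K hK)⟩
    haveI := hN
    have hlt1 : Nat.card N < Nat.card G :=
      lt_of_le_of_ne (Subgroup.card_le_card_group N) fun e => hNne.2 (Subgroup.eq_top_of_card_eq N e)
    have hlt2 : Nat.card (G ⧸ N) < Nat.card G := by
      rw [Subgroup.card_eq_card_quotient_mul_card_subgroup N]
      exact lt_mul_of_one_lt_right Nat.card_pos (N.one_lt_card_iff_ne_bot.mpr hNne.1)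
    obtain ⟨k, hk⟩ := hk
    haveI : Group.IsSolvable N := by
      refine ih _ hlt1 (sylow_comm_subgroup hab N) (M.subgroupOf N) ?_ ?_ rfl
      · refine hM.of_dvd_nat ?_
        have h := Subgroup.card_dvd_of_injective
          ((N.subtype.comp (M.subgroupOf N).subtype).codRestrict M fun z => z.2)
          fun z w hzw => Subtype.ext (Subtype.ext (congrArg (fun t : M => (t : G)) hzw))
        exact h
      · obtain ⟨l, -, hl⟩ := (Nat.dvd_prime_pow Nat.prime_two).1
          ((relIndex_dvd_index_right M N).trans (dvd_of_eq hk))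
        exact ⟨l, hl⟩
    haveI : Group.IsSolvable (G ⧸ N) := by
      refine ih _ hlt2 (sylow_comm_quotient hab N) (M.map (QuotientGroup.mk' N)) ?_ ?_ rfl
      · exact hM.of_dvd_nat (Subgroup.card_map_dvd M _)
      · obtain ⟨l, -, hl⟩ := (Nat.dvd_prime_pow Nat.prime_two).1
          ((Subgroup.index_map_dvd M (QuotientGroup.mk'_surjective N)).trans (dvd_of_eq hk))
        exact ⟨l, hl⟩
    exact Group.isSolvable_of_ker_le_range N.subtype (QuotientGroup.mk' N) (by simp)
  haveI := hsimple
  by_cases hna : IsMulCommutative G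
  · exact Group.isSolvable_of_comm fun a b => mul_comm' a b
  exfalso
  obtain ⟨S⟩ : Nonempty (Sylow 2 G) := inferInstance
  have hS := hab S
  have hcenter : Subgroup.center G = ⊥ :=
    (Subgroup.Normal.eq_bot_or_eq_top inferInstance).resolve_right fun e =>
      hna ⟨⟨fun a b => Subgroup.mem_center_iff.1 (e ▸ Subgroup.mem_top b) a⟩⟩
  have hdvd : 2 ∣ Nat.card (S : Subgroup G) :=
    S.dvd_card_of_dvd_card (even_iff_two_dvd.1 (Nat.not_odd_iff_even.1 hodd))
  obtain ⟨a, ha2⟩ := exists_prime_orderOf_dvd_card' 2 hdvd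
  rw [← Subgroup.orderOf_coe] at ha2
  have hnn : ¬ (S : Subgroup G).Normal := by
    intro hn
    rcases Subgroup.Normal.eq_bot_or_eq_top hn with e | e
    · rw [e, Subgroup.card_bot] at hdvd
      omega
    · haveI := hS
      exact hna ⟨⟨fun x y => congrArg Subtype.val
        (mul_comm' (⟨x, e ▸ Subgroup.mem_top x⟩ : (S : Subgroup G)) ⟨y, e ▸ Subgroup.mem_top y⟩)⟩⟩
  have hcore : M.normalCore = ⊥ :=
    (Subgroup.Normal.eq_bot_or_eq_top M.normalCore_normal).resolve_right fun e => hodd (by
      have hMt : M = ⊤ := top_unique (e ▸ M.normalCore_le)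
      rwa [hMt, Subgroup.card_top] at hM)
  have hC : ∀ u ∈ (S : Subgroup G), orderOf u = 2 →
      Subgroup.centralizer ({u} : Set G) ≤ Subgroup.normalizer ((S : Subgroup G) : Set G) := by
    intro u hu hu2
    set C := Subgroup.centralizer ({u} : Set G) with hCdef
    have hSC : (S : Subgroup G) ≤ C := fun s hs => Subgroup.mem_centralizer_singleton_iff.2
      (haveI := hS; congrArg Subtype.val (mul_comm' (⟨s, hs⟩ : (S : Subgroup G)) ⟨u, hu⟩))
    have hCtop : C ≠ ⊤ := by
      intro e
      have h : u ∈ Subgroup.center G := Subgroup.mem_center_iff.2 fun g =>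
        Subgroup.mem_centralizer_singleton_iff.1 (show g ∈ C by rw [e]; trivial)
      rw [hcenter, Subgroup.mem_bot] at h
      rw [h, orderOf_one] at hu2
      omega
    have hlt : Nat.card C < Nat.card G :=
      lt_of_le_of_ne (Subgroup.card_le_card_group C) fun e => hCtop (Subgroup.eq_top_of_card_eq C e)
    haveI : Group.IsSolvable C := by
      refine ih _ hlt (sylow_comm_subgroup hab C) (M.subgroupOf C) ?_ ?_ rfl
      · refine hM.of_dvd_nat ?_
        exact Subgroup.card_dvd_of_injective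
          ((C.subtype.comp (M.subgroupOf C).subtype).codRestrict M fun z => z.2)
          fun z w hzw => Subtype.ext (Subtype.ext (congrArg (fun t : M => (t : G)) hzw))
      · obtain ⟨k, hk⟩ := hk
        exact ⟨k, (relIndex_eq_index S hM ⟨k, hk⟩ hSC).trans hk⟩
    have hW : Cfsg.pPrimeCore 2 C = ⊥ := by
      haveI := H19.pPrimeCore_normal 2 C
      have hc : Nat.card ((Cfsg.pPrimeCore 2 C).map C.subtype) = Nat.card (Cfsg.pPrimeCore 2 C) :=
        Subgroup.card_map_of_injective C.subtype_injective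
      refine (Subgroup.map_eq_bot_iff_of_injective _ C.subtype_injective).1
        (odd_normal_eq_bot S hM hk hcore hSC (Subgroup.map_subtype_le _) ?_ ?_)
      · intro g hg
        refine Subgroup.mem_normalizer_iff.2 fun n => ⟨?_, ?_⟩
        · rintro ⟨m, hm, rfl⟩
          exact ⟨⟨g, hg⟩ * m * ⟨g, hg⟩⁻¹, Subgroup.Normal.conj_mem inferInstance m hm _, rfl⟩
        · rintro ⟨m, hm, hmn⟩
          refine ⟨⟨g, hg⟩⁻¹ * m * ⟨g, hg⟩,
            by simpa using Subgroup.Normal.conj_mem inferInstance m hm (⟨g, hg⟩⁻¹ : C), ?_⟩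
          show g⁻¹ * (m : G) * g = n
          rw [show (m : G) = g * n * g⁻¹ from hmn]
          group
      · rw [hc]
        exact Nat.coprime_two_right.1 (H19.pPrimeCore_coprime 2)
    have hn := H19.sylow_sup_pPrimeCore_normal (S.subtype hSC) (by
      exact sylow_comm_subgroup hab C _)
    rw [hW, sup_bot_eq, Sylow.coe_subtype] at hn
    exact (Subgroup.normal_subgroupOf_iff_le_normalizer hSC).1 hn
  by_cases huniq : ∀ b ∈ (S : Subgroup G), orderOf b = 2 → b = (a : G)
  · haveI := hS
    open scoped IsMulCommutative in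
    let f : G →* (S : Subgroup G) := MonoidHom.transfer (MonoidHom.id (S : Subgroup G))
    have hsq : (a : G) ^ 2 = 1 := by
      have := pow_orderOf_eq_one (a : G); rwa [ha2] at this
    have key : ∀ (k : ℕ) (g₀ : G), g₀⁻¹ * (a : G) ^ k * g₀ ∈ (S : Subgroup G) →
        g₀⁻¹ * (a : G) ^ k * g₀ = (a : G) ^ k := by
      intro k g₀ hg
      rcases Nat.even_or_odd' k with ⟨l, rfl | rfl⟩
      · rw [pow_mul, hsq, one_pow, mul_one, inv_mul_cancel]
      · have h : (a : G) ^ (2 * l + 1) = a := by
          rw [pow_succ, pow_mul, hsq, one_pow, one_mul]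
        rw [h] at hg ⊢
        exact huniq _ hg (by rw [ACA.orderOf_conj', ha2])
    have hf : f (a : G) = 1 := by
      rcases Subgroup.Normal.eq_bot_or_eq_top f.normal_ker with e | e
      · exact absurd ⟨⟨fun x y => (MonoidHom.ker_eq_bot_iff f).1 e
          (by rw [map_mul, map_mul, mul_comm'])⟩⟩ hna
      · exact MonoidHom.mem_ker.1 (e ▸ Subgroup.mem_top _)
    open scoped IsMulCommutative in
    rw [MonoidHom.transfer_eq_pow _ _ key] at hf
    have h1 : (a : G) ^ (S : Subgroup G).index = 1 := congrArg Subtype.val hf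
    exact S.not_dvd_index ((dvd_of_eq ha2.symm).trans (orderOf_dvd_of_pow_eq_one h1))
  · push Not at huniq
    obtain ⟨b, hb, hb2, hne⟩ := huniq
    exact endgame S hS M hM hk hnn hC a.2 ha2 hb hb2 (Ne.symm hne)

end Cfsg.Agent.H7.TwoComp
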