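import Mathlib
import Cfsg.Agent.H7.TwoComp.Main
import Cfsg.Agent.H89.ClassSizeCover
import Cfsg.Agent.S0205

/-!
# A-groups with an element whose class size is the maximal 2-part
-/

set_option autoImplicit false

namespace Cfsg.Agent.H7.TwoComp

open scoped Pointwise

universe u

/-- A perfect group with abelian Sylow subgroups has trivial centre. -/
lemma center_eq_bot_of_perfect_aGroup {G : Type u} [Group G] [Finite G]
    (hA : ∀ (p : ℕ) [Fact p.Prime] (P : Sylow p G), IsMulCommutative (P : Subgroup G))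
    (hperf : commutator G = ⊤) : Subgroup.center G = ⊥ := by
  by_contra hne
  have h1 : 1 < Nat.card (Subgroup.center G) := (Subgroup.one_lt_card_iff_ne_bot _).2 hne
  obtain ⟨p, hp, hdvd⟩ := Nat.exists_prime_and_dvd h1.ne'
  haveI : Fact p.Prime := ⟨hp⟩
  obtain ⟨c, hc⟩ := exists_prime_orderOf_dvd_card' p hdvd
  rw [← Subgroup.orderOf_coe] at hc
  have hzp : IsPGroup p (Subgroup.zpowers (c : G)) := by
    refine IsPGroup.of_card (n := 1) ?_
    rw [Nat.card_zpowers, hc, pow_one]
  obtain ⟨P, hP⟩ := hzp.exists_le_sylow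
  haveI := hA p P
  open scoped IsMulCommutative in
  let f : G →* (P : Subgroup G) := MonoidHom.transfer (MonoidHom.id (P : Subgroup G))
  have key : ∀ (k : ℕ) (g₀ : G), g₀⁻¹ * (c : G) ^ k * g₀ ∈ (P : Subgroup G) →
      g₀⁻¹ * (c : G) ^ k * g₀ = (c : G) ^ k := fun k g₀ _ => by
    rw [mul_assoc, ← Subgroup.mem_center_iff.1 (pow_mem c.2 k) g₀, inv_mul_cancel_left]
  have hf : f (c : G) = 1 := by
    open scoped IsMulCommutative in
    exact MonoidHom.mem_ker.1 (Abelianization.commutator_subset_ker f (hperf ▸ Subgroup.mem_top _))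
  open scoped IsMulCommutative in
  rw [MonoidHom.transfer_eq_pow _ _ key] at hf
  have h2 : (c : G) ^ (P : Subgroup G).index = 1 := congrArg Subtype.val hf
  exact P.not_dvd_index ((dvd_of_eq hc.symm).trans (orderOf_dvd_of_pow_eq_one h2))

lemma sylow_comm_subgroup' {G : Type u} [Group G] [Finite G]
    (hA : ∀ (p : ℕ) [Fact p.Prime] (P : Sylow p G), IsMulCommutative (P : Subgroup G))
    (N : Subgroup G) (p : ℕ) [Fact p.Prime] (P : Sylow p N) :
    IsMulCommutative (P : Subgroup N) := by
  obtain ⟨S, hS⟩ := (P.2.map N.subtype).exists_le_sylow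
  haveI := hA p S
  refine ⟨⟨fun x y => ?_⟩⟩
  have h := congrArg Subtype.val
    (mul_comm' (⟨_, hS ⟨x, x.2, rfl⟩⟩ : (S : Subgroup G)) ⟨_, hS ⟨y, y.2, rfl⟩⟩)
  exact Subtype.ext (Subtype.ext h)

/-- The class-size criterion. -/
theorem isSolvable_of_max_two_part {G : Type u} [Group G] [Finite G]
    (hA : ∀ (p : ℕ) [Fact p.Prime] (P : Sylow p G), IsMulCommutative (P : Subgroup G))
    (a : ℕ) (hmax : ∀ y : G, ¬ 2 ^ (a + 1) ∣ (Subgroup.centralizer ({y} : Set G)).index)
    (hx : ∃ x : G, (Subgroup.centralizer ({x} : Set G)).index = 2 ^ a) :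
    Group.IsSolvable G := by
  classical
  haveI : Fact (Nat.Prime 2) := ⟨Nat.prime_two⟩
  obtain ⟨x, hx⟩ := hx
  set K := Subgroup.centralizer ({x} : Set G) with hK
  obtain ⟨T⟩ : Nonempty (Sylow 2 K) := inferInstance
  set T' := (T : Subgroup K).map K.subtype with hT'
  have hT'card : Nat.card T' = Nat.card (T : Subgroup K) :=
    Subgroup.card_map_of_injective K.subtype_injective
  obtain ⟨S, hTS⟩ := (T.2.map K.subtype).exists_le_sylow
  haveI hScomm := hA 2 S
  have hscomm : ∀ s ∈ (S : Subgroup G), ∀ t ∈ (S : Subgroup G), s * t = t * s := fun s hs t ht =>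
    congrArg Subtype.val (mul_comm' (⟨s, hs⟩ : (S : Subgroup G)) ⟨t, ht⟩)
  have hvG : (Nat.card G).factorization 2 = (Nat.card K).factorization 2 + a := by
    rw [← K.card_mul_index, hx, Nat.factorization_mul Nat.card_pos.ne' (by positivity),
      Finsupp.add_apply, Nat.prime_two.factorization_pow, Finsupp.single_eq_same]
  have hScard : Nat.card (S : Subgroup G) = Nat.card (T : Subgroup K) * 2 ^ a := by
    rw [S.card_eq_multiplicity, T.card_eq_multiplicity, hvG, pow_add]
  have hSK : (S : Subgroup G) ⊓ K = T' := by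
    refine le_antisymm ?_ (le_inf hTS (Subgroup.map_subtype_le _))
    have h1 : IsPGroup 2 (((S : Subgroup G) ⊓ K).subgroupOf K) :=
      (S.2.to_le inf_le_left).of_equiv (Subgroup.subgroupOfEquivOfLe inf_le_right).symm
    have h2 := T.3 h1 (fun t ht => ⟨hTS ⟨t, ht, rfl⟩, t.2⟩)
    intro g hg
    exact ⟨⟨g, hg.2⟩, h2 ▸ (show (⟨g, hg.2⟩ : K) ∈ ((S : Subgroup G) ⊓ K).subgroupOf K from hg),
      rfl⟩
  have hfac : ∀ g : G, ∃ s ∈ (S : Subgroup G), s⁻¹ * g ∈ K := by
    intro g
    let φ : ((S : Subgroup G) ⧸ K.subgroupOf S) → G ⧸ K := fun q => ((q.out : G) : G ⧸ K)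
    have hinj : Function.Injective φ := fun q r hqr => by
      rw [← q.out_eq', ← r.out_eq']
      have h : (q.out : G)⁻¹ * (r.out : G) ∈ K := QuotientGroup.eq.1 hqr
      exact QuotientGroup.eq.2 h
    have hcard : Nat.card ((S : Subgroup G) ⧸ K.subgroupOf S) = Nat.card (G ⧸ K) := by
      have h1 := Subgroup.card_eq_card_quotient_mul_card_subgroup (K.subgroupOf (S : Subgroup G))
      have h2 : Nat.card (K.subgroupOf (S : Subgroup G)) = Nat.card (T : Subgroup K) := by
        rw [← hT'card, ← hSK, ← Subgroup.inf_subgroupOf_left K (S : Subgroup G)]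
        exact Nat.card_congr (Subgroup.subgroupOfEquivOfLe inf_le_left).toEquiv
      rw [h2, hScard, mul_comm] at h1
      rw [show Nat.card (G ⧸ K) = 2 ^ a from (Subgroup.index_eq_card K).symm.trans hx]
      exact (Nat.eq_of_mul_eq_mul_right Nat.card_pos h1).symm
    obtain ⟨q, hq⟩ := ((Nat.bijective_iff_injective_and_card φ).2 ⟨hinj, hcard⟩).2 (g : G ⧸ K)
    exact ⟨_, q.out.2, QuotientGroup.eq.1 hq⟩
  set H := Subgroup.centralizer (Set.range fun g : G => g * x * g⁻¹) with hH
  haveI hHn : H.Normal := by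
    refine ⟨fun h hh g => Subgroup.mem_centralizer_iff.2 ?_⟩
    rintro _ ⟨c, rfl⟩
    have := Subgroup.mem_centralizer_iff.1 hh _ ⟨g⁻¹ * c, rfl⟩
    calc c * x * c⁻¹ * (g * h * g⁻¹)
        = g * ((g⁻¹ * c) * x * (g⁻¹ * c)⁻¹ * h) * g⁻¹ := by group
      _ = g * (h * ((g⁻¹ * c) * x * (g⁻¹ * c)⁻¹)) * g⁻¹ := by rw [this]
      _ = g * h * g⁻¹ * (c * x * c⁻¹) := by group
  have hHK : H ≤ K := fun h hh => Subgroup.mem_centralizer_singleton_iff.2
    (by simpa using (Subgroup.mem_centralizer_iff.1 hh _ ⟨1, rfl⟩).symm)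
  have hTH : T' ≤ H := by
    intro t ht
    refine Subgroup.mem_centralizer_iff.2 ?_
    rintro _ ⟨g, rfl⟩
    obtain ⟨s, hs, hk⟩ := hfac g
    have htx : t * x = x * t :=
      Subgroup.mem_centralizer_singleton_iff.1 (Subgroup.map_subtype_le _ ht)
    have hkx : (s⁻¹ * g) * x * (s⁻¹ * g)⁻¹ = x := by
      rw [Subgroup.mem_centralizer_singleton_iff.1 hk, mul_inv_cancel_right]
    have hgx : g * x * g⁻¹ = s * x * s⁻¹ := by
      calc g * x * g⁻¹ = s * ((s⁻¹ * g) * x * (s⁻¹ * g)⁻¹) * s⁻¹ := by group
        _ = s * x * s⁻¹ := by rw [hkx]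
    show g * x * g⁻¹ * t = t * (g * x * g⁻¹)
    rw [hgx]
    have hts : s⁻¹ * t = t * s⁻¹ := hscomm _ (inv_mem hs) _ (hTS ht)
    calc s * x * s⁻¹ * t = s * x * (s⁻¹ * t) := by group
      _ = s * (x * t) * s⁻¹ := by rw [hts]; group
      _ = s * t * (x * s⁻¹) := by rw [← htx]; group
      _ = t * (s * x * s⁻¹) := by rw [hscomm s hs t (hTS ht)]; group
  haveI : Group.IsSolvable (G ⧸ H) := by
    refine isSolvable_of_two_complement (sylow_comm_quotient (fun P => hA 2 P) H)
      (K.map (QuotientGroup.mk' H)) ?_ ?_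
    · have h1 : Nat.card (K.map (QuotientGroup.mk' H)) =
          ((QuotientGroup.mk' H).comp K.subtype).ker.index := by
        rw [Subgroup.index_ker, MonoidHom.range_comp, Subgroup.range_subtype]
      have h2 : (T : Subgroup K) ≤ ((QuotientGroup.mk' H).comp K.subtype).ker := fun t ht =>
        (QuotientGroup.eq_one_iff (t : G)).2 (hTH ⟨t, ht, rfl⟩)
      rw [h1, ← Nat.not_even_iff_odd, even_iff_two_dvd]
      exact fun hd => T.not_dvd_index (hd.trans (Subgroup.index_dvd_of_le h2))
    · obtain ⟨l, -, hl⟩ := (Nat.dvd_prime_pow Nat.prime_two).1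
        ((Subgroup.index_map_dvd K (QuotientGroup.mk'_surjective H)).trans (dvd_of_eq hx))
      exact ⟨l, hl⟩
  -- perfect normal subgroups of `G` in `H` are trivial
  have hperfect : ∀ E : Subgroup G, E.Normal → E ≤ H → commutator E = ⊤ →
      Subsingleton E := by
    intro E hEn hEH hperf
    have hcen := center_eq_bot_of_perfect_aGroup (sylow_comm_subgroup' hA E) hperf
    have hcen' : ∀ d ∈ E, (∀ e ∈ E, d * e = e * d) → d = 1 := by
      intro d hd hde
      have h1 : (⟨d, hd⟩ : E) ∈ Subgroup.center E := Subgroup.mem_center_iff.2 fun e =>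
        Subtype.ext (hde e e.2).symm
      rw [hcen, Subgroup.mem_bot] at h1
      exact congrArg Subtype.val h1
    obtain ⟨Q⟩ : Nonempty (Sylow 2 E) := inferInstance
    have hcov : ∀ y : E, y ∈ H89.conjCover (Subgroup.centralizer ((Q : Subgroup E) : Set E)) := by
      intro y
      set Cz := Subgroup.centralizer ({x * (y : G)} : Set G) with hCz
      obtain ⟨U₀⟩ : Nonempty (Sylow 2 Cz) := inferInstance
      have hUcard : Nat.card (T : Subgroup K) ≤ Nat.card (U₀ : Subgroup Cz) := by
        rw [T.card_eq_multiplicity, U₀.card_eq_multiplicity]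
        refine Nat.pow_le_pow_right (by norm_num) ?_
        have h1 : Cz.index.factorization 2 ≤ a := by
          by_contra hlt
          have hd : 2 ^ (a + 1) ∣ Cz.index :=
            (Nat.prime_two.pow_dvd_iff_le_factorization Subgroup.index_ne_zero_of_finite).2 (by omega)
          exact hmax (x * y) hd
        have h2 : (Nat.card G).factorization 2 =
            (Nat.card Cz).factorization 2 + Cz.index.factorization 2 := by
          rw [← Cz.card_mul_index, Nat.factorization_mul Nat.card_pos.ne'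
            Subgroup.index_ne_zero_of_finite, Finsupp.add_apply]
        omega
      set U := (U₀ : Subgroup Cz).map Cz.subtype with hU
      have hUp : IsPGroup 2 U := U₀.2.map _
      have hUc : Nat.card (T : Subgroup K) ≤ Nat.card U :=
        hUcard.trans (le_of_eq (Subgroup.card_map_of_injective Cz.subtype_injective).symm)
      have hUxy : ∀ s ∈ U, s ∈ K ∧ s * (y : G) = (y : G) * s := by
        intro s hs
        have hsz : s * (x * y) = x * y * s :=
          Subgroup.mem_centralizer_singleton_iff.1 (Subgroup.map_subtype_le _ hs)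
        have hd : x⁻¹ * (s * x * s⁻¹) = (y : G) * (s * (y : G) * s⁻¹)⁻¹ := by
          calc x⁻¹ * (s * x * s⁻¹) = x⁻¹ * (s * (x * y)) * ((y : G)⁻¹ * s⁻¹) := by group
            _ = x⁻¹ * (x * y * s) * ((y : G)⁻¹ * s⁻¹) := by rw [hsz]
            _ = (y : G) * (s * (y : G) * s⁻¹)⁻¹ := by group
        have hdE : x⁻¹ * (s * x * s⁻¹) ∈ E := by
          rw [hd]; exact mul_mem y.2 (inv_mem (hEn.conj_mem _ y.2 s))
        have hd1 := hcen' _ hdE fun e he => by
          have h1 : x * e = e * x := by
            simpa using Subgroup.mem_centralizer_iff.1 (hEH he) _ ⟨1, rfl⟩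
          have h2 : s * x * s⁻¹ * e = e * (s * x * s⁻¹) :=
            Subgroup.mem_centralizer_iff.1 (hEH he) _ ⟨s, rfl⟩
          calc x⁻¹ * (s * x * s⁻¹) * e = x⁻¹ * (s * x * s⁻¹ * e) := by group
            _ = x⁻¹ * (e * x) * x⁻¹ * (s * x * s⁻¹) := by rw [h2]; group
            _ = e * (x⁻¹ * (s * x * s⁻¹)) := by rw [← h1]; group
        have hsx : s * x * s⁻¹ = x := (inv_mul_eq_one.1 hd1).symm
        refine ⟨Subgroup.mem_centralizer_singleton_iff.2 (mul_inv_eq_iff_eq_mul.1 hsx), ?_⟩
        rw [hd1, eq_comm, mul_inv_eq_one] at hd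
        exact mul_inv_eq_iff_eq_mul.1 hd.symm
      have hUK : U ≤ K := fun s hs => (hUxy s hs).1
      have hUH : U ≤ H := by
        obtain ⟨P, hP⟩ := (hUp.of_equiv (Subgroup.subgroupOfEquivOfLe hUK).symm).exists_le_sylow
        have hPc : Nat.card (P : Subgroup K) = Nat.card (T : Subgroup K) := by
          rw [P.card_eq_multiplicity, T.card_eq_multiplicity]
        obtain ⟨k, rfl⟩ := MulAction.exists_smul_eq K T P
        intro s hs
        have h1 : (⟨s, hUK hs⟩ : K) ∈ ((k • T : Sylow 2 K) : Subgroup K) := hP hs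
        rw [Sylow.coe_subgroup_smul, Subgroup.mem_pointwise_smul_iff_inv_smul_mem,
          ← map_inv, MulAut.smul_def, MulAut.conj_apply, inv_inv] at h1
        have h2 : (k : G)⁻¹ * s * k ∈ H := hTH ⟨_, h1, rfl⟩
        have := hHn.conj_mem _ h2 (k : G)
        simpa [mul_assoc] using this
      -- a Sylow 2-subgroup of `H` centralised by `y`
      obtain ⟨V, hV⟩ := (hUp.of_equiv (Subgroup.subgroupOfEquivOfLe hUH).symm).exists_le_sylow
      have hVy : ∀ v ∈ (V : Subgroup H), (v : G) * y = (y : G) * v := by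
        have hVc : Nat.card (V : Subgroup H) ≤ Nat.card (T : Subgroup K) := by
          have hle : (V : Subgroup H).map H.subtype ≤ K := (Subgroup.map_subtype_le _).trans hHK
          obtain ⟨P, hP⟩ := ((V.2.map H.subtype).of_equiv
            (Subgroup.subgroupOfEquivOfLe hle).symm).exists_le_sylow
          have h1 := Subgroup.card_le_of_le hP
          rw [Nat.card_congr (Subgroup.subgroupOfEquivOfLe hle).toEquiv,
            Subgroup.card_map_of_injective H.subtype_injective, P.card_eq_multiplicity,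
            ← T.card_eq_multiplicity] at h1
          exact h1
        have heq := Subgroup.eq_of_le_of_card_ge hV (hVc.trans (hUc.trans
          (le_of_eq (Nat.card_congr (Subgroup.subgroupOfEquivOfLe hUH).toEquiv).symm)))
        intro v hv
        rw [← heq] at hv
        exact (hUxy _ hv).2
      -- move a Sylow subgroup of `E` into it
      obtain ⟨W, hW⟩ := (Q.2.map (Subgroup.inclusion hEH)).exists_le_sylow
      obtain ⟨h, rfl⟩ := MulAction.exists_smul_eq H W V
      have hsur : Function.Surjective (MulAut.conjNormal (h : G) : MulAut E).toMonoidHom :=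
        (MulAut.conjNormal (h : G) : MulAut E).surjective
      obtain ⟨e, he⟩ := MulAction.exists_smul_eq E Q (Q.mapSurjective hsur)
      refine ⟨e, ?_⟩
      rw [Subgroup.mem_pointwise_smul_iff_inv_smul_mem, ← map_inv, MulAut.smul_def,
        MulAut.conj_apply, inv_inv, Subgroup.mem_centralizer_iff]
      intro q hq
      have h1 : e * q * e⁻¹ ∈ ((Q.mapSurjective hsur : Sylow 2 E) : Subgroup E) := by
        rw [← he, Sylow.coe_subgroup_smul]
        exact ⟨q, hq, rfl⟩
      obtain ⟨q', hq', hqq⟩ := h1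
      have h2 : (h : G) * (q' : G) * (h : G)⁻¹ = (e : G) * q * (e : G)⁻¹ := by
        have := congrArg Subtype.val hqq
        simpa using this
      have h3 : h * Subgroup.inclusion hEH q' * h⁻¹ ∈ ((h • W : Sylow 2 H) : Subgroup H) := by
        rw [Sylow.coe_subgroup_smul]
        exact ⟨_, hW ⟨q', hq', rfl⟩, rfl⟩
      have h4 : ((e : G) * q * (e : G)⁻¹) * y = (y : G) * ((e : G) * q * (e : G)⁻¹) := by
        rw [← h2]; exact hVy _ h3
      refine Subtype.ext ?_
      show (q : G) * ((e : G)⁻¹ * y * e) = (e : G)⁻¹ * y * e * q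
      calc (q : G) * ((e : G)⁻¹ * y * e) = (e : G)⁻¹ * ((e * q * (e : G)⁻¹) * y) * e := by group
        _ = (e : G)⁻¹ * (y * (e * q * (e : G)⁻¹)) * e := by rw [h4]
        _ = (e : G)⁻¹ * y * e * q := by group
    have htop := H89.eq_top_of_conjCover hcov
    have hQ : (Q : Subgroup E) ≤ Subgroup.center E :=
      Subgroup.centralizer_eq_top_iff_subset.1 htop
    have hodd : Odd (Nat.card E) := by
      rw [← Nat.not_even_iff_odd, even_iff_two_dvd]
      intro hd
      have := Q.dvd_card_of_dvd_card hd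
      rw [hcen, le_bot_iff] at hQ
      rw [hQ, Subgroup.card_bot] at this
      omega
    haveI := S0205.result hodd
    by_contra hne
    haveI : Nontrivial E := not_subsingleton_iff_nontrivial.1 hne
    exact (Group.IsSolvable.commutator_lt_top_of_nontrivial E).ne hperf
  haveI : Group.IsSolvable H := by
    have hex : ∃ m n, Nat.card (derivedSeries H n) = m := ⟨_, 0, rfl⟩
    obtain ⟨n, hn⟩ := Nat.find_spec hex
    have hstab : derivedSeries H (n + 1) = derivedSeries H n :=
      Subgroup.eq_of_le_of_card_ge (derivedSeries_antitone H (Nat.le_succ n))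
        (hn ▸ Nat.find_min' hex ⟨_, rfl⟩)
    have hperf : commutator (derivedSeries H n) = ⊤ :=
      Subgroup.map_injective (derivedSeries H n).subtype_injective
        (by rw [Subgroup.map_subtype_commutator, ← MonoidHom.range_eq_map, Subgroup.range_subtype]
            exact hstab)
    set E := (derivedSeries H n).map H.subtype with hE
    have eE : derivedSeries H n ≃* E :=
      (derivedSeries H n).equivMapOfInjective H.subtype H.subtype_injective
    have hperfE : commutator E = ⊤ := by
      rw [← Subgroup.map_top_of_surjective eE.toMonoidHom eE.surjective, ← hperf,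
        commutator_def, commutator_def, Subgroup.map_commutator,
        Subgroup.map_top_of_surjective eE.toMonoidHom eE.surjective]
    haveI : Subsingleton E :=
      hperfect E inferInstance (Subgroup.map_subtype_le _) hperfE
    refine ⟨⟨n, ?_⟩⟩
    haveI : Subsingleton (derivedSeries H n) := eE.toEquiv.subsingleton
    exact Subgroup.eq_bot_of_subsingleton _
  exact Group.isSolvable_of_ker_le_range H.subtype (QuotientGroup.mk' H) (by simp)

end Cfsg.Agent.H7.TwoComp
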